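import Cfsg.Agent.H614.XZ.Big
import Cfsg.Agent.H45.XL.One

/-!
# S4791 + S4927, row `PSL_n`, `p ∣ q - 1`, `p ≤ n` (helper614)

`fam_psl_one` : the family of `p - 1` characters.
-/

set_option autoImplicit false

namespace Cfsg.Agent.H614.XZ

open Cfsg Cfsg.Agent.H674.XZ Cfsg.Agent.H443.XC

universe u

/-- **The families of `PSL_n(q)`**, `p ∣ q - 1`, `p ≤ n`. -/
theorem fam_psl_one {p : ℕ} [hp : Fact p.Prime] (h11 : 11 ≤ p) {M : Ideal AlgInt} (hM : IsPModular p M) {S : Type u} [Group S]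
    [Finite S] {F : Type} [Field F] [Fintype F] (hq : p ∣ Fintype.card F - 1) {n : ℕ} (hn : p ≤ n)
    (iso : S ≃* Matrix.ProjectiveSpecialLinearGroup (Fin n) F) : Fam p M S (p - 1) := by
  have h1 := fam_of_FV_label h11 (M := M) (e := 1) (w := n) (s := 0) Nat.one_pos (by omega) (by omega) iso
    fun β hβ c hc => Cfsg.Agent.H45.XL.FV_label_one hM hq (by omega) β hβ c hc
  rwa [one_mul] at h1

/-- the form wanted by the row -/
theorem fam_psl_one' {p : ℕ} [hp : Fact p.Prime] (h11 : 11 ≤ p) {M : Ideal AlgInt} (hM : IsPModular p M) {S : Type u} [Group S]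
    [Finite S] {F : Type} [Field F] [Fintype F] (hq : p ∣ Fintype.card F - 1) {n : ℕ} (hn : p ≤ n)
    (iso : S ≃* Matrix.ProjectiveSpecialLinearGroup (Fin n) F) : ∃ R, 4 * (p - 1) < R ^ 2 ∧ Fam p M S R := by
  refine ⟨p - 1, ?_, fam_psl_one h11 hM hq hn iso⟩
  have h1 := count_big h11 (e := 1) Nat.one_pos
  rwa [one_mul] at h1

end Cfsg.Agent.H614.XZ
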